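import Cfsg.Agent.H541.Bs.Glue

/-!
# S5733, BS04: the TI recursion, linear case (helper541, for helper847)

* `ti_gen`, `ti_gl` : an element conjugating `glue x y` to `glue x' y'`, `x`, `x'` irreducible on `D`, `U` without
  composition factors of dimension `dim D` in the socle and in the head, preserves `D` and `U`;
* `csetP`, `card_csetP` : the union of the conjugates of the `glue p`, `p ∈ P`;
* `rec_gen`, `rec_gl` : the recursion;
* `ti_small`, `card_small`, `disjoint_small` : small spaces `W`.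
-/

set_option autoImplicit false

namespace Cfsg.Agent.H541.Bs

open Cfsg.Agent.H847.Bs Module

section TI

variable {F V : Type*} [Field F] [AddCommGroup V] [Module F V] {D U D' U' : Submodule F V}

theorem conj_rel {g z z' : V ≃ₗ[F] V} (e : g * z * g⁻¹ = z') (v : V) : g (z v) = z' (g v) := by
  rw [← e]
  change g (z v) = g (z (g⁻¹ (g v)))
  have : g⁻¹ (g v) = v := g.symm_apply_apply v
  rw [this]

theorem irr_glue_D (h : IsCompl D U) {x : D ≃ₗ[F] D} (y : U ≃ₗ[F] U) (hx : Irr x ⊤) : Irr (glue h x y) D := by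
  have h1 := Irr.map_or (f := D.subtype) (y := glue h x y) (fun v => (glue_D h x y v).symm) hx
  rcases h1 with h1 | h1
  · exfalso
    apply hx.ne_bot
    rwa [Submodule.ker_subtype, le_bot_iff] at h1
  · rw [Submodule.map_top, Submodule.range_subtype] at h1
    exact h1.1

/-- **TI property**, two decompositions -/
theorem ti_gen [FiniteDimensional F V] (h : IsCompl D U) (h' : IsCompl D' U') {x : D ≃ₗ[F] D} {y : U ≃ₗ[F] U}
    {x' : D' ≃ₗ[F] D'} {y' : U' ≃ₗ[F] U'} (hx : Irr x ⊤) (hx' : Irr x' ⊤)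
    (hy' : ∀ X, Irr y' X → finrank F X < finrank F D) (hq : ∀ Y, Quo y Y → finrank F U < finrank F Y + finrank F D')
    {g : V ≃ₗ[F] V} (e : g * glue h x y * g⁻¹ = glue h' x' y') :
    D.map (g : V →ₗ[F] V) = D' ∧ U.map (g : V →ₗ[F] V) = U' := by
  have hr := conj_rel e
  have h1 : D.map (g : V →ₗ[F] V) ≤ D' := by
    have h2 := Irr.map_or (z := glue h x y) (f := (pU h') ∘ₗ (g : V →ₗ[F] V)) (y := y') (fun v => by
      change pU h' (g (glue h x y v)) = y' (pU h' (g v))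
      rw [hr, pU_glue]) (irr_glue_D h y hx)
    rcases h2 with h2 | ⟨h2, h3⟩
    · rintro _ ⟨v, hv, rfl⟩
      exact (pU_eq_zero h').1 (h2 hv)
    · exfalso
      have := hy' _ h2
      omega
  have hD : D.map (g : V →ₗ[F] V) = D' := by
    refine ((irr_glue_D h' y' hx').min _ h1 (Inv.map (f := (g : V →ₗ[F] V)) hr (inv_glue_D h x y))).resolve_left ?_
    intro h2
    apply (irr_glue_D h y hx).ne_bot
    rwa [Submodule.map_eq_bot_iff] at h2
  refine ⟨hD, ?_⟩
  have hfD : finrank F D = finrank F D' := by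
    rw [← hD]
    exact (LinearEquiv.finrank_map_eq g D).symm
  have hU : U.map (g : V →ₗ[F] V) ≤ U' := by
    by_cases h0 : (pD h') ∘ₗ (g : V →ₗ[F] V) ∘ₗ U.subtype = 0
    · rintro _ ⟨v, hv, rfl⟩
      have h2 := LinearMap.congr_fun h0 ⟨v, hv⟩
      exact (pD_eq_zero h').1 h2
    · exfalso
      obtain ⟨h2, h3⟩ := quo_ker (z := y) (y := x') (f := (pD h') ∘ₗ (g : V →ₗ[F] V) ∘ₗ U.subtype) (fun v => by
        change pD h' (g (y v)) = x' (pD h' (g v))
        rw [← glue_U h x y v, hr, pD_glue]) hx' h0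
      have := hq _ h2
      omega
  apply Submodule.eq_of_le_of_finrank_eq hU
  have h2 := Submodule.finrank_add_eq_of_isCompl h
  have h3 := Submodule.finrank_add_eq_of_isCompl h'
  have h4 : finrank F (U.map (g : V →ₗ[F] V)) = finrank F U := LinearEquiv.finrank_map_eq g U
  omega

/-- **(2)** -/
theorem ti_gl [FiniteDimensional F V] (h : IsCompl D U) {x x' : D ≃ₗ[F] D} {y y' : U ≃ₗ[F] U} (hx : Irr x ⊤)
    (hx' : Irr x' ⊤) (hy' : ∀ X, Irr y' X → finrank F X < finrank F D)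
    (hq : ∀ Y, Quo y Y → finrank F U < finrank F Y + finrank F D)
    {g : V ≃ₗ[F] V} (e : g * glue h x y * g⁻¹ = glue h x' y') : Inv g D ∧ Inv g U := by
  obtain ⟨h1, h2⟩ := ti_gen h h hx hx' hy' hq e
  exact ⟨inv_of_map_le h1.le, inv_of_map_le h2.le⟩

end TI

section Card

variable {F V : Type*} [Field F] [AddCommGroup V] [Module F V] {D U : Submodule F V}

theorem finite_gl (F V : Type*) [Field F] [AddCommGroup V] [Module F V] [Finite F] [FiniteDimensional F V] :
    Finite (V ≃ₗ[F] V) := by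
  have : Finite V := Module.finite_of_finite F
  exact Finite.of_injective (fun g : V ≃ₗ[F] V => (g : V → V)) DFunLike.coe_injective

/-- the conjugates under `G` of the elements `glue p`, `p ∈ P` -/
def csetP (G : Subgroup (V ≃ₗ[F] V)) (h : IsCompl D U) (P : Set ((D ≃ₗ[F] D) × (U ≃ₗ[F] U))) : Set (V ≃ₗ[F] V) :=
  {z | ∃ g ∈ G, ∃ p ∈ P, z = g * glueHom h p * g⁻¹}

theorem cset_eq (G : Subgroup (V ≃ₗ[F] V)) (h : IsCompl D U) (X : Set (D ≃ₗ[F] D)) (Y : Set (U ≃ₗ[F] U)) :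
    cset G h X Y = csetP G h (X ×ˢ Y) := by
  ext z
  constructor
  · rintro ⟨g, hg, x, hx, y, hy, rfl⟩
    exact ⟨g, hg, (x, y), ⟨hx, hy⟩, rfl⟩
  · rintro ⟨g, hg, ⟨x, y⟩, ⟨hx, hy⟩, rfl⟩
    exact ⟨g, hg, x, hx, y, hy, rfl⟩

/-- **(3)**, general form -/
theorem card_csetP [Finite F] [FiniteDimensional F V] (G : Subgroup (V ≃ₗ[F] V)) (h : IsCompl D U)
    (P : Set ((D ≃ₗ[F] D) × (U ≃ₗ[F] U)))
    (hTI : ∀ p ∈ P, ∀ p' ∈ P, ∀ g ∈ G, g * glueHom h p * g⁻¹ = glueHom h p' → Inv g D ∧ Inv g U) :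
    Nat.card G * Nat.card P ≤
      Nat.card {p : (D ≃ₗ[F] D) × (U ≃ₗ[F] U) // glueHom h p ∈ G} * Nat.card (csetP G h P) := by
  have := finite_gl F V
  have := finite_gl F D
  have := finite_gl F U
  rw [← Nat.card_prod, ← Nat.card_prod]
  have hrep : ∀ z : csetP G h P, ∃ q : (V ≃ₗ[F] V) × ((D ≃ₗ[F] D) × (U ≃ₗ[F] U)),
      q.1 ∈ G ∧ q.2 ∈ P ∧ (z : V ≃ₗ[F] V) = q.1 * glueHom h q.2 * q.1⁻¹ := by
    rintro ⟨z, g, hg, p, hp, rfl⟩
    exact ⟨(g, p), hg, hp, rfl⟩
  choose q hq1 hq2 hq3 using hrep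
  have hk : ∀ (a : G × P), ∃ r : {p : (D ≃ₗ[F] D) × (U ≃ₗ[F] U) // glueHom h p ∈ G},
      glueHom h r.1 = (q ⟨a.1 * glueHom h a.2 * (a.1 : V ≃ₗ[F] V)⁻¹, a.1, a.1.2, a.2, a.2.2, rfl⟩).1⁻¹ * a.1 := by
    rintro ⟨⟨g, hg⟩, ⟨p, hp⟩⟩
    obtain ⟨z, hz⟩ : ∃ z : csetP G h P, z = ⟨g * glueHom h p * g⁻¹, g, hg, p, hp, rfl⟩ := ⟨_, rfl⟩
    have h1 : (z : V ≃ₗ[F] V) = g * glueHom h p * g⁻¹ := by rw [hz]
    have h2 := hq3 z
    have h3 : ((q z).1⁻¹ * g) * glueHom h p * ((q z).1⁻¹ * g)⁻¹ = glueHom h (q z).2 := by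
      calc ((q z).1⁻¹ * g) * glueHom h p * ((q z).1⁻¹ * g)⁻¹ = (q z).1⁻¹ * (g * glueHom h p * g⁻¹) * (q z).1 := by group
        _ = (q z).1⁻¹ * ((q z).1 * glueHom h (q z).2 * (q z).1⁻¹) * (q z).1 := by rw [← h1, h2]
        _ = glueHom h (q z).2 := by group
    have hmem : (q z).1⁻¹ * g ∈ G := G.mul_mem (G.inv_mem (hq1 z)) hg
    obtain ⟨h4, h5⟩ := hTI p hp _ (hq2 z) _ hmem h3
    obtain ⟨x, y, h6⟩ := exists_glue h h4 h5
    refine ⟨⟨(x, y), ?_⟩, ?_⟩
    · rw [glueHom_apply, ← h6]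
      exact hmem
    · rw [glueHom_apply, ← h6, hz]
  choose r hr using hk
  refine Nat.card_le_card_of_injective
    (fun a : G × P => (r a, (⟨a.1 * glueHom h a.2 * (a.1 : V ≃ₗ[F] V)⁻¹, a.1, a.1.2, a.2, a.2.2, rfl⟩ : csetP G h P))) ?_
  intro a b hab
  have h1 : r a = r b := congrArg Prod.fst hab
  have h2 : (⟨a.1 * glueHom h a.2 * (a.1 : V ≃ₗ[F] V)⁻¹, a.1, a.1.2, a.2, a.2.2, rfl⟩ : csetP G h P) =
      ⟨b.1 * glueHom h b.2 * (b.1 : V ≃ₗ[F] V)⁻¹, b.1, b.1.2, b.2, b.2.2, rfl⟩ := congrArg Prod.snd hab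
  have h3 := hr a
  rw [h1, hr b, h2] at h3
  have h4 : (a.1 : V ≃ₗ[F] V) = b.1 := (mul_left_cancel h3).symm
  have h5 : (a.1 : V ≃ₗ[F] V) * glueHom h a.2 * (a.1 : V ≃ₗ[F] V)⁻¹ = b.1 * glueHom h b.2 * (b.1 : V ≃ₗ[F] V)⁻¹ :=
    congrArg Subtype.val h2
  rw [h4] at h5
  have h6 := glueHom_injective h (mul_left_cancel (mul_right_cancel h5))
  exact Prod.ext (Subtype.ext h4) (Subtype.ext h6)

theorem card_pairs_top [Finite F] [FiniteDimensional F V] (h : IsCompl D U) :
    Nat.card {p : (D ≃ₗ[F] D) × (U ≃ₗ[F] U) // glueHom h p ∈ (⊤ : Subgroup (V ≃ₗ[F] V))} =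
      Nat.card (D ≃ₗ[F] D) * Nat.card (U ≃ₗ[F] U) := by
  rw [← Nat.card_prod]
  exact Nat.card_congr ((Equiv.subtypeEquivRight fun _ => by simp).trans (Equiv.Set.univ _))

end Card

section Rec

variable {F V : Type*} [Field F] [AddCommGroup V] [Module F V] [FiniteDimensional F V] {D U : Submodule F V}

theorem finrank_inf_ge (A B : Submodule F V) : finrank F A + finrank F B ≤ finrank F (A ⊓ B : Submodule F V) + finrank F V := by
  have h1 := Submodule.finrank_sup_add_finrank_inf_eq A B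
  have h2 := Submodule.finrank_le (A ⊔ B)
  omega

theorem finrank_comap_subtype (A B : Submodule F V) :
    finrank F (A.comap B.subtype) = finrank F (B ⊓ A : Submodule F V) := by
  rw [← Submodule.map_comap_subtype]
  exact (Submodule.finrank_map_subtype_eq B (A.comap B.subtype)).symm

/-- **(4)**: `glue x y` is a large block element -/
theorem glue_mem (h : IsCompl D U) {K d : ℕ} (hd : finrank F D = d) (hK : K < d) {x : D ≃ₗ[F] D} {y : U ≃ₗ[F] U}
    (hx : Irr x ⊤) (hy : y ∈ SG F U K (d - 1)) : glue h x y ∈ SG F V K d := by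
  rw [SG.mem_iff] at hy ⊢
  obtain ⟨y1, y2, y3, y4⟩ := hy
  have hV := Submodule.finrank_add_eq_of_isCompl h
  have hiD := irr_glue_D h y hx
  refine ⟨fun Y hY h0 => ?_, fun Y hY h0 => ?_, fun X hX => ?_, fun Y hY => ?_⟩
  · by_cases h1 : Y.map (pU h) = ⊥
    · have h2 : Y ≤ D := by
        intro v hv
        have h3 : pU h v ∈ Y.map (pU h) := Submodule.mem_map_of_mem hv
        rw [h1, Submodule.mem_bot] at h3
        exact (pU_eq_zero h).1 h3
      rw [(hiD.min Y h2 hY).resolve_left h0, hd]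
      exact hK
    · exact (y1 _ (Inv.map (pU_glue h x y) hY) h1).trans_le (Submodule.finrank_map_le _ _)
  · by_cases h1 : Y.comap U.subtype = ⊤
    · have h2 : U ≤ Y := by
        intro u hu
        have h3 : (⟨u, hu⟩ : U) ∈ Y.comap U.subtype := by rw [h1]; exact Submodule.mem_top
        exact h3
      have h3 := hx.min (Y.map (pD h)) le_top (Inv.map (pD_glue h x y) hY)
      rcases h3 with h3 | h3
      · have h4 : Y ≤ U := by
          intro v hv
          have h5 : pD h v ∈ Y.map (pD h) := Submodule.mem_map_of_mem hv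
          rw [h3, Submodule.mem_bot] at h5
          exact (pD_eq_zero h).1 h5
        rw [le_antisymm h4 h2]
        omega
      · exfalso
        apply h0
        rw [eq_top_iff]
        intro v _
        have h4 : pD h v ∈ Y.map (pD h) := by rw [h3]; exact Submodule.mem_top
        obtain ⟨w, hw, hwv⟩ := h4
        have h5 : v - w ∈ U := by
          rw [← pD_eq_zero h, map_sub, hwv, sub_self]
        have h6 := Y.add_mem (h2 h5) hw
        rwa [sub_add_cancel] at h6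
    · have h2 := y2 _ (Inv.comap (f := U.subtype) (z := y) (y := glue h x y) (fun v => (glue_U h x y v).symm) hY) h1
      rw [finrank_comap_subtype] at h2
      have h3 := finrank_inf_ge U Y
      omega
  · rcases Irr.map_or (pU_glue h x y) hX with h1 | ⟨h1, h2⟩
    · rw [ker_pU] at h1
      rw [← hd]
      exact Submodule.finrank_mono h1
    · have := y3 _ h1
      omega
  · rcases hY.max (Y ⊔ D) (inv_sup hY.inv (inv_glue_D h x y)) le_sup_left with h1 | h1
    · have hDY : D ≤ Y := sup_eq_left.1 h1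
      have hq : Quo y (Y.comap U.subtype) := by
        refine ⟨Inv.comap (f := U.subtype) (z := y) (y := glue h x y) (fun v => (glue_U h x y v).symm) hY.inv, ?_, ?_⟩
        · intro h2
          apply hY.ne_top
          rw [eq_top_iff]
          intro v _
          rw [← pD_add_pU h v]
          refine Y.add_mem (hDY (pD h v).2) ?_
          have h3 : pU h v ∈ Y.comap U.subtype := by rw [h2]; exact Submodule.mem_top
          exact h3
        · intro Z hZ hle
          have h2 := hY.max (D ⊔ Z.map U.subtype) (inv_sup (inv_glue_D h x y)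
            (Inv.map (f := U.subtype) (z := y) (y := glue h x y) (fun v => (glue_U h x y v).symm) hZ)) (by
            intro v hv
            rw [← pD_add_pU h v]
            refine Submodule.add_mem_sup (pD h v).2 ⟨pU h v, hle ?_, rfl⟩
            have h3 : (pU h v : V) = v - pD h v := by
              rw [eq_sub_iff_add_eq, add_comm]
              exact pD_add_pU h v
            change (pU h v : V) ∈ Y
            rw [h3]
            exact Y.sub_mem hv (hDY (pD h v).2))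
          have hmem : ∀ u : U, (u : V) ∈ D ⊔ Z.map U.subtype → u ∈ Z := by
            intro u hu
            obtain ⟨a, ha, b, ⟨c, hc, rfl⟩, hab⟩ := Submodule.mem_sup.1 hu
            have h3 := congrArg (pU h) hab
            rw [map_add, pU_U] at h3
            have h4 : pU h a = 0 := (pU_eq_zero h).2 ha
            have h5 : pU h (U.subtype c) = c := pU_U h c
            rw [h4, h5, zero_add] at h3
            rw [← h3]
            exact hc
          rcases h2 with h2 | h2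
          · left
            apply le_antisymm _ hle
            intro u hu
            change (u : V) ∈ Y
            rw [← h2]
            exact Submodule.mem_sup_right ⟨u, hu, rfl⟩
          · right
            rw [eq_top_iff]
            intro u _
            apply hmem
            rw [h2]
            exact Submodule.mem_top
      have h2 := y4 _ hq
      rw [finrank_comap_subtype] at h2
      have h3 : finrank F (D : Submodule F V) + finrank F (U ⊓ Y : Submodule F V) ≤ finrank F Y := by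
        have h4 := Submodule.finrank_sup_add_finrank_inf_eq D (U ⊓ Y)
        have h5 : D ⊓ (U ⊓ Y) = ⊥ := by
          rw [eq_bot_iff, ← h.inf_eq_bot]
          exact inf_le_inf_left _ inf_le_left
        have h6 : D ⊔ (U ⊓ Y) ≤ Y := sup_le hDY inf_le_right
        have h7 := Submodule.finrank_mono h6
        rw [h5, finrank_bot] at h4
        omega
      omega
    · have h2 := Submodule.finrank_sup_add_finrank_inf_eq Y D
      rw [h1, finrank_top] at h2
      omega

/-- **(4)**, general form: `P` is a set of pairs -/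
theorem rec_gen [Finite F] (G : Subgroup (V ≃ₗ[F] V)) (h : IsCompl D U) {K d : ℕ} (hd : finrank F D = d) (hK : K < d)
    {P : Set ((D ≃ₗ[F] D) × (U ≃ₗ[F] U))} (hX : ∀ p ∈ P, Irr p.1 ⊤) (hY : ∀ p ∈ P, p.2 ∈ SG F U K (d - 1)) :
    Nat.card G * Nat.card P ≤
      Nat.card {p : (D ≃ₗ[F] D) × (U ≃ₗ[F] U) // glueHom h p ∈ G} * Nat.card (csetP G h P) ∧
    csetP G h P ⊆ SG F V K d ∧ Disjoint (csetP G h P) (SG F V K (d - 1)) := by
  refine ⟨card_csetP G h P ?_, ?_, ?_⟩
  · intro p hp p' hp' g _ e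
    have h1 := (SG.mem_iff.1 (hY p hp)).2.2.2
    have h2 := (SG.mem_iff.1 (hY p' hp')).2.2.1
    refine ti_gl h (hX p hp) (hX p' hp') (fun X hX => ?_) (fun Y hY => ?_) e
    · have := h2 X hX
      omega
    · have := h1 Y hY
      omega
  · rintro _ ⟨g, _, p, hp, rfl⟩
    exact SG.conj g (glue_mem h hd hK (hX p hp) (hY p hp))
  · rw [Set.disjoint_left]
    rintro _ ⟨g, _, p, hp, rfl⟩ hz
    have h1 := SG.conj g⁻¹ hz
    have h2 : g⁻¹ * (g * glueHom h p * g⁻¹) * g⁻¹⁻¹ = glueHom h p := by group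
    rw [h2] at h1
    have h3 := (SG.mem_iff.1 h1).2.2.1 D (irr_glue_D h p.2 (hX p hp))
    omega

/-- **(4)** -/
theorem rec_gl [Finite F] (h : IsCompl D U) {K d : ℕ} (hd : finrank F D = d) (hK : K < d) {X : Set (D ≃ₗ[F] D)}
    (hX : ∀ x ∈ X, Irr x ⊤) {Y : Set (U ≃ₗ[F] U)} (hY : Y ⊆ SG F U K (d - 1)) :
    Nat.card (V ≃ₗ[F] V) * Nat.card X * Nat.card Y ≤
      Nat.card (D ≃ₗ[F] D) * Nat.card (U ≃ₗ[F] U) * Nat.card (cset ⊤ h X Y) ∧
    cset ⊤ h X Y ⊆ SG F V K d ∧ Disjoint (cset ⊤ h X Y) (SG F V K (d - 1)) := by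
  have h1 := rec_gen ⊤ h hd hK (P := X ×ˢ Y) (fun p hp => hX _ hp.1) (fun p hp => hY hp.2)
  rw [cset_eq]
  refine ⟨?_, h1.2⟩
  have h2 := h1.1
  rw [card_pairs_top, Subgroup.card_top, Nat.card_congr (Equiv.Set.prod X Y), Nat.card_prod, ← mul_assoc] at h2
  exact h2

/-- **(3)** for `G = ⊤` -/
theorem card_cset [Finite F] (h : IsCompl D U) (X : Set (D ≃ₗ[F] D)) (Y : Set (U ≃ₗ[F] U))
    (hTI : ∀ x ∈ X, ∀ y ∈ Y, ∀ x' ∈ X, ∀ y' ∈ Y, ∀ g : V ≃ₗ[F] V, g * glue h x y * g⁻¹ = glue h x' y' →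
      Inv g D ∧ Inv g U) :
    Nat.card (V ≃ₗ[F] V) * Nat.card X * Nat.card Y ≤
      Nat.card (D ≃ₗ[F] D) * Nat.card (U ≃ₗ[F] U) * Nat.card (cset ⊤ h X Y) := by
  have h2 := card_csetP ⊤ h (X ×ˢ Y) (fun p hp p' hp' g _ e => hTI _ hp.1 _ hp.2 _ hp'.1 _ hp'.2 g e)
  rw [card_pairs_top, Subgroup.card_top, Nat.card_congr (Equiv.Set.prod X Y), Nat.card_prod, ← mul_assoc] at h2
  rw [cset_eq]
  exact h2

end Rec

section Small

variable {F V : Type*} [Field F] [AddCommGroup V] [Module F V] [FiniteDimensional F V] {W U W' U' : Submodule F V}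

theorem small_le (h : IsCompl W U) (h' : IsCompl W' U') {K d : ℕ} (hW : finrank F W ≤ K)
    {w : W ≃ₗ[F] W} {u : U ≃ₗ[F] U} {w' : W' ≃ₗ[F] W'} {u' : U' ≃ₗ[F] U'} (hu' : u' ∈ SG F U' K d)
    {g : V ≃ₗ[F] V} (e : g * glue h w u * g⁻¹ = glue h' w' u') : W.map (g : V →ₗ[F] V) ≤ W' := by
  have hr := conj_rel e
  have h1 : Inv u' ((W.map (g : V →ₗ[F] V)).map (pU h')) :=
    Inv.map (pU_glue h' w' u') (Inv.map (f := (g : V →ₗ[F] V)) hr (inv_glue_D h w u))
  have h2 : (W.map (g : V →ₗ[F] V)).map (pU h') = ⊥ := by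
    by_contra h0
    have h3 := (SG.mem_iff.1 hu').1 _ h1 h0
    have h4 := Submodule.finrank_map_le (pU h') (W.map (g : V →ₗ[F] V))
    have h5 : finrank F (W.map (g : V →ₗ[F] V)) = finrank F W := LinearEquiv.finrank_map_eq g W
    omega
  intro v hv
  have h3 : pU h' v ∈ (W.map (g : V →ₗ[F] V)).map (pU h') := Submodule.mem_map_of_mem hv
  rw [h2, Submodule.mem_bot] at h3
  exact (pU_eq_zero h').1 h3

/-- **(6)** the second TI situation -/
theorem ti_small (h : IsCompl W U) (h' : IsCompl W' U') {K d : ℕ} (hW : finrank F W ≤ K) (hW' : finrank F W' ≤ K)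
    {w : W ≃ₗ[F] W} {u : U ≃ₗ[F] U} {w' : W' ≃ₗ[F] W'} {u' : U' ≃ₗ[F] U'} (hu : u ∈ SG F U K d)
    (hu' : u' ∈ SG F U' K d) {g : V ≃ₗ[F] V} (e : g * glue h w u * g⁻¹ = glue h' w' u') :
    W.map (g : V →ₗ[F] V) = W' ∧ U.map (g : V →ₗ[F] V) = U' := by
  have h1 := small_le h h' hW hu' e
  have h2 : W'.map (g⁻¹ : V ≃ₗ[F] V).toLinearMap ≤ W := by
    refine small_le h' h hW' (w := w') (u := u') (w' := w) (u' := u) hu (g := g⁻¹) ?_
    rw [← e]
    group
  have hfg : finrank F (W.map (g : V →ₗ[F] V)) = finrank F W := LinearEquiv.finrank_map_eq g W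
  have hfg' : finrank F (W'.map (g⁻¹ : V ≃ₗ[F] V).toLinearMap) = finrank F W' := LinearEquiv.finrank_map_eq g⁻¹ W'
  have h3 := Submodule.finrank_mono h1
  have h4 := Submodule.finrank_mono h2
  have hWW : finrank F W = finrank F W' := by omega
  refine ⟨Submodule.eq_of_le_of_finrank_eq h1 (by omega), ?_⟩
  have hV := Submodule.finrank_add_eq_of_isCompl h
  have hV' := Submodule.finrank_add_eq_of_isCompl h'
  have hr := conj_rel e
  have hUg : finrank F (U.map (g : V →ₗ[F] V)) = finrank F U := LinearEquiv.finrank_map_eq g U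
  have h5 : (U.map (g : V →ₗ[F] V)).comap U'.subtype = ⊤ := by
    by_contra h0
    have h6 := (SG.mem_iff.1 hu').2.1 _ (Inv.comap (f := U'.subtype) (z := u') (y := glue h' w' u')
      (fun v => (glue_U h' w' u' v).symm) (Inv.map (f := (g : V →ₗ[F] V)) hr (inv_glue_U h w u))) h0
    rw [finrank_comap_subtype] at h6
    have h7 := finrank_inf_ge U' (U.map (g : V →ₗ[F] V))
    omega
  symm
  refine Submodule.eq_of_le_of_finrank_eq ?_ (by omega)
  intro v hv
  have h6 : (⟨v, hv⟩ : U') ∈ (U.map (g : V →ₗ[F] V)).comap U'.subtype := by rw [h5]; exact Submodule.mem_top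
  exact h6

/-- `W` is determined by `glue w u` -/
theorem small_eq (h : IsCompl W U) (h' : IsCompl W' U') {K d : ℕ} (hW : finrank F W ≤ K) (hW' : finrank F W' ≤ K)
    {w : W ≃ₗ[F] W} {u : U ≃ₗ[F] U} {w' : W' ≃ₗ[F] W'} {u' : U' ≃ₗ[F] U'} (hu : u ∈ SG F U K d)
    (hu' : u' ∈ SG F U' K d) (e : glue h w u = glue h' w' u') : W = W' ∧ U = U' := by
  have h1 := ti_small h h' hW hW' hu hu' (g := 1) (by rw [one_mul, inv_one, mul_one, e])
  have h2 : ∀ Y : Submodule F V, Y.map ((1 : V ≃ₗ[F] V) : V →ₗ[F] V) = Y := fun Y => Submodule.map_id Y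
  rw [h2, h2] at h1
  exact h1

/-- the count for a small space -/
theorem card_small [Finite F] (G : Subgroup (V ≃ₗ[F] V)) (h : IsCompl W U) {K d : ℕ} (hW : finrank F W ≤ K)
    {P : Set ((W ≃ₗ[F] W) × (U ≃ₗ[F] U))} (hP : ∀ p ∈ P, p.2 ∈ SG F U K d) :
    Nat.card G * Nat.card P ≤
      Nat.card {p : (W ≃ₗ[F] W) × (U ≃ₗ[F] U) // glueHom h p ∈ G} * Nat.card (csetP G h P) := by
  refine card_csetP G h P fun p hp p' hp' g _ e => ?_
  obtain ⟨h1, h2⟩ := ti_small h h hW hW (hP p hp) (hP p' hp') e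
  exact ⟨inv_of_map_le h1.le, inv_of_map_le h2.le⟩

/-- small spaces of different dimensions give disjoint sets -/
theorem disjoint_small (G G' : Subgroup (V ≃ₗ[F] V)) (h : IsCompl W U) (h' : IsCompl W' U') {K d : ℕ}
    (hW : finrank F W ≤ K) (hW' : finrank F W' ≤ K) (hne : finrank F W ≠ finrank F W')
    {P : Set ((W ≃ₗ[F] W) × (U ≃ₗ[F] U))} (hP : ∀ p ∈ P, p.2 ∈ SG F U K d)
    {P' : Set ((W' ≃ₗ[F] W') × (U' ≃ₗ[F] U'))} (hP' : ∀ p ∈ P', p.2 ∈ SG F U' K d) :
    Disjoint (csetP G h P) (csetP G' h' P') := by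
  rw [Set.disjoint_left]
  rintro _ ⟨g, _, p, hp, rfl⟩ ⟨g', _, p', hp', e⟩
  have h1 := (ti_small h h' hW hW' (hP p hp) (hP' p' hp') (g := g'⁻¹ * g) (by
    rw [← glueHom_apply, ← glueHom_apply]
    calc g'⁻¹ * g * glueHom h p * (g'⁻¹ * g)⁻¹ = g'⁻¹ * (g * glueHom h p * g⁻¹) * g' := by group
      _ = g'⁻¹ * (g' * glueHom h' p' * g'⁻¹) * g' := by rw [e]
      _ = glueHom h' p' := by group)).1
  apply hne
  rw [← h1]
  exact (LinearEquiv.finrank_map_eq (g'⁻¹ * g) W).symm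

end Small

end Cfsg.Agent.H541.Bs
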